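import Mathlib
import Cfsg.Agent.H629.T9.Defs
import Cfsg.Agent.H631.OneClass

/-!
# S4876 (T9d): the local situation `Free8`

* `Free8.map`, `CycE.map_iff` : homomorphisms injective on `P` with `f (N(P)) = N(f P)`;
* `Free8.trans` : `N(P)` is transitive on `P \ {1}`; `Free8.oneC`;
* `Free8.conj`, `CycE.conj_iff` : the choice of the Sylow subgroup;
* `not_notFree`.
-/

set_option autoImplicit false
set_option linter.style.haveILetI false

open Subgroup

namespace Cfsg.Agent.H629.T9

open Cfsg Cfsg.Agent.H631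

universe u v

section hom

variable {G : Type u} {H : Type v} [Group G] [Group H] (f : G →* H) {P : Subgroup G}

theorem mem_cent_iff (hi : ∀ x ∈ P, f x = 1 → x = 1) {g : G} (hg : g ∈ normalizer (P : Set G)) :
    f g ∈ centralizer ((P.map f : Subgroup H) : Set H) ↔ g ∈ centralizer (P : Set G) := by
  constructor
  · intro h
    rw [mem_centralizer_iff] at h ⊢
    intro x hx
    have h1 := h (f x) ⟨x, hx, rfl⟩
    have h2 : g * x * g⁻¹ ∈ P := (mem_normalizer_iff.1 hg x).1 hx
    have h3 := hi (g * x * g⁻¹ * x⁻¹) (P.mul_mem h2 (P.inv_mem hx)) (by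
      rw [map_mul, map_mul, map_mul, map_inv, map_inv, ← h1]; group)
    have h4 : g * x * g⁻¹ = x := by rwa [mul_inv_eq_one] at h3
    exact (mul_inv_eq_iff_eq_mul.1 h4).symm
  · intro h
    rw [mem_centralizer_iff] at h ⊢
    rintro _ ⟨x, hx, rfl⟩
    rw [← map_mul, ← map_mul, h x hx]

theorem norm_map_eq (hn : normalizer ((P.map f : Subgroup H) : Set H) ≤ (normalizer (P : Set G)).map f) :
    normalizer ((P.map f : Subgroup H) : Set H) = (normalizer (P : Set G)).map f := by
  refine le_antisymm hn ?_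
  rintro _ ⟨g, hg, rfl⟩
  rw [mem_normalizer_iff]
  intro y
  constructor
  · rintro ⟨x, hx, rfl⟩
    exact ⟨g * x * g⁻¹, (mem_normalizer_iff.1 hg x).1 hx, by simp⟩
  · rintro ⟨x, hx, he⟩
    refine ⟨g⁻¹ * x * g, ?_, ?_⟩
    · have h1 := (mem_normalizer_iff.1 ((normalizer (P : Set G)).inv_mem hg) x).1 hx
      simpa using h1
    · rw [map_mul, map_mul, map_inv, he]; group

theorem cent_le_norm {G : Type u} [Group G] (P : Subgroup G) :
    centralizer (P : Set G) ≤ normalizer (P : Set G) := by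
  intro g hg
  rw [mem_normalizer_iff]
  rw [mem_centralizer_iff] at hg
  intro x
  constructor
  · intro hx
    rw [← hg x hx, mul_inv_cancel_right]; exact hx
  · intro hx
    have h1 := hg _ hx
    have h2 : g * x * g⁻¹ * g = g * x := by group
    rw [h2] at h1
    have h3 : x = g * x * g⁻¹ := mul_left_cancel h1
    rw [h3]; exact hx

theorem Free8.map (hi : ∀ x ∈ P, f x = 1 → x = 1)
    (hn : normalizer ((P.map f : Subgroup H) : Set H) ≤ (normalizer (P : Set G)).map f) (h : Free8 P) :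
    Free8 (P.map f) := by
  have hinj : Function.Injective (f.subgroupMap P) := by
    rw [injective_iff_map_eq_one]
    rintro ⟨x, hx⟩ h0
    exact Subtype.ext (hi x hx (congrArg Subtype.val h0))
  let e : P ≃* P.map f := MulEquiv.ofBijective (f.subgroupMap P) ⟨hinj, f.subgroupMap_surjective P⟩
  have hN := norm_map_eq f hn
  refine ⟨?_, ?_, ?_, ?_⟩
  · rw [← h.card]; exact (Nat.card_congr e.toEquiv).symm
  · intro hc
    exact h.nc (isCyclic_of_surjective e.symm e.symm.surjective)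
  · rw [hN, ← relIndex_comap, ← h.ind, ← inf_relIndex_right, ← inf_relIndex_right (centralizer (P : Set G))]
    congr 1
    ext g
    simp only [mem_inf, mem_comap]
    constructor
    · rintro ⟨h1, h2⟩
      exact ⟨(mem_cent_iff f hi h2).1 h1, h2⟩
    · rintro ⟨h1, h2⟩
      exact ⟨(mem_cent_iff f hi h2).2 h1, h2⟩
  · rw [hN]
    rintro _ ⟨g, hg, rfl⟩ hgc _ ⟨x, hx, rfl⟩ hx1 he
    have h1 : g ∉ centralizer (P : Set G) := fun h0 => hgc ((mem_cent_iff f hi hg).2 h0)
    have h2 : x ≠ 1 := by rintro rfl; exact hx1 (map_one f)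
    have h3 : g * x * g⁻¹ ∈ P := (mem_normalizer_iff.1 hg x).1 hx
    have h4 := hi (g * x * g⁻¹ * x⁻¹) (P.mul_mem h3 (P.inv_mem hx)) (by
      rw [map_mul, map_mul, map_mul, map_inv, map_inv, he]; group)
    exact h.free g hg h1 x hx h2 (mul_inv_eq_one.1 h4)

theorem CycE.map_iff (hi : ∀ x ∈ P, f x = 1 → x = 1)
    (hn : normalizer ((P.map f : Subgroup H) : Set H) ≤ (normalizer (P : Set G)).map f) :
    CycE (P.map f) ↔ CycE P := by
  have hN := norm_map_eq f hn
  unfold CycE
  rw [hN]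
  constructor
  · rintro ⟨_, ⟨g, hg, rfl⟩, hall⟩
    refine ⟨g, hg, fun h hh => ?_⟩
    obtain ⟨i, c, hc, he⟩ := hall (f h) ⟨h, hh, rfl⟩
    have hA : (g ^ i)⁻¹ * h ∈ normalizer (P : Set G) :=
      (normalizer (P : Set G)).mul_mem ((normalizer (P : Set G)).inv_mem
        ((normalizer (P : Set G)).pow_mem hg i)) hh
    have h1 : f ((g ^ i)⁻¹ * h) = c := by
      rw [map_mul, map_inv, map_pow, he]; group
    refine ⟨i, (g ^ i)⁻¹ * h, (mem_cent_iff f hi hA).1 (by rw [h1]; exact hc), by group⟩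
  · rintro ⟨g, hg, hall⟩
    refine ⟨f g, ⟨g, hg, rfl⟩, ?_⟩
    rintro _ ⟨h, hh, rfl⟩
    obtain ⟨i, c, hc, he⟩ := hall h hh
    exact ⟨i, f c, (mem_cent_iff f hi (cent_le_norm P hc)).2 hc, by rw [he, map_mul, map_pow]⟩

end hom

section fin

variable {G : Type u} [Group G] [Finite G]

/-- `N(P)` is transitive on `P \ {1}` -/
theorem Free8.trans {P : Subgroup G} (h : Free8 P) {x y : G} (hx : x ∈ P) (hx1 : x ≠ 1) (hy : y ∈ P) (hy1 : y ≠ 1) :
    ∃ g ∈ normalizer (P : Set G), g * x * g⁻¹ = y := by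
  classical
  set A := normalizer (P : Set G) with hA
  set C := (centralizer (P : Set G)).subgroupOf A with hC
  have hcA : Nat.card (A ⧸ C) = 8 := h.ind
  have hcT : Nat.card ↥((P : Set G) \ {1}) = 8 := by
    rw [Nat.card_coe_set_eq, Set.ncard_sdiff_singleton_of_mem P.one_mem, ← Nat.card_coe_set_eq]
    have := h.card
    change Nat.card P - 1 = 8
    omega
  let F : A → ↥((P : Set G) \ {1}) := fun a => ⟨a * x * (a : G)⁻¹, (mem_normalizer_iff.1 a.2 x).1 hx, by
    intro h0
    rw [Set.mem_singleton_iff, mul_inv_eq_one] at h0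
    exact hx1 (mul_eq_left.1 h0)⟩
  let q : A ⧸ C → ↥((P : Set G) \ {1}) := fun c => F c.out
  have hq : Function.Injective q := by
    intro c d hcd
    have h1 : ((c.out : A) : G) * x * ((c.out : A) : G)⁻¹ = ((d.out : A) : G) * x * ((d.out : A) : G)⁻¹ :=
      congrArg Subtype.val hcd
    have h2 : ((c.out : A)⁻¹ * (d.out : A) : A) ∈ C := by
      refine mem_subgroupOf.2 ?_
      by_contra hcon
      refine h.free _ ((c.out : A)⁻¹ * (d.out : A) : A).2 hcon x hx hx1 ?_
      rw [Subgroup.coe_mul, Subgroup.coe_inv]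
      calc ((c.out : A) : G)⁻¹ * ((d.out : A) : G) * x * (((c.out : A) : G)⁻¹ * ((d.out : A) : G))⁻¹
          = ((c.out : A) : G)⁻¹ * (((d.out : A) : G) * x * ((d.out : A) : G)⁻¹) * ((c.out : A) : G) := by group
        _ = x := by rw [← h1]; group
    have h3 := QuotientGroup.eq.2 h2
    simpa using h3
  have hb : Function.Bijective q := hq.bijective_of_nat_card_le (by rw [hcA, hcT])
  obtain ⟨c, hc⟩ := hb.surjective ⟨y, hy, hy1⟩
  exact ⟨(c.out : A), (c.out : A).2, congrArg Subtype.val hc⟩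

/-- every `p`-element has a conjugate in a given Sylow subgroup -/
theorem exists_conj_mem {p : ℕ} [Fact p.Prime] (P : Sylow p G) {x : G} (hx : ∃ k : ℕ, orderOf x = p ^ k) :
    ∃ g : G, g * x * g⁻¹ ∈ (P : Subgroup G) := by
  have hpg : IsPGroup p (zpowers x) := by
    obtain ⟨k, hk⟩ := hx
    exact IsPGroup.of_card (n := k) (by rw [Nat.card_zpowers, hk])
  obtain ⟨Q, hQ⟩ := hpg.exists_le_sylow
  obtain ⟨g, hg⟩ := MulAction.exists_smul_eq G Q P
  refine ⟨g, ?_⟩
  rw [← hg]
  exact ⟨x, hQ (mem_zpowers x), rfl⟩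

theorem Free8.oneC [Fact (Nat.Prime 3)] {P : Sylow 3 G} (h : Free8 (P : Subgroup G)) : OneC 3 G := by
  intro x y hx hy hxk hyk
  obtain ⟨a, ha⟩ := exists_conj_mem P hxk
  obtain ⟨b, hb⟩ := exists_conj_mem P hyk
  have ha1 : a * x * a⁻¹ ≠ 1 := fun h0 => hx (by simpa using h0)
  have hb1 : b * y * b⁻¹ ≠ 1 := fun h0 => hy (by simpa using h0)
  obtain ⟨g, -, hg⟩ := h.trans ha ha1 hb hb1
  refine isConj_iff.2 ⟨b⁻¹ * g * a, ?_⟩
  calc b⁻¹ * g * a * x * (b⁻¹ * g * a)⁻¹ = b⁻¹ * (g * (a * x * a⁻¹) * g⁻¹) * b := by group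
    _ = y := by rw [hg]; group

/-- the local situation does not depend on the Sylow subgroup -/
theorem Free8.conj {p : ℕ} [Fact p.Prime] (P Q : Sylow p G) (h : Free8 (P : Subgroup G)) :
    Free8 (Q : Subgroup G) := by
  obtain ⟨g, hg⟩ := MulAction.exists_smul_eq G P Q
  have h1 : (Q : Subgroup G) = (P : Subgroup G).map (MulAut.conj g).toMonoidHom := by
    rw [← hg]; rfl
  rw [h1]
  refine h.map _ ?_ ?_
  · intro x _ hx
    exact (MulAut.conj g).injective (by simpa using hx)
  · exact (map_equiv_normalizer_eq (P : Subgroup G) (MulAut.conj g)).ge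

theorem CycE.conj_iff {p : ℕ} [Fact p.Prime] (P Q : Sylow p G) :
    CycE (P : Subgroup G) ↔ CycE (Q : Subgroup G) := by
  obtain ⟨g, hg⟩ := MulAction.exists_smul_eq G P Q
  have h1 : (Q : Subgroup G) = (P : Subgroup G).map (MulAut.conj g).toMonoidHom := by
    rw [← hg]; rfl
  rw [h1]
  refine (CycE.map_iff _ ?_ ?_).symm
  · intro x _ hx
    exact (MulAut.conj g).injective (by simpa using hx)
  · exact (map_equiv_normalizer_eq (P : Subgroup G) (MulAut.conj g)).ge

theorem NotFree.map {X : Type u} {Y : Type v} [Group X] [Group Y] (f : X →* Y) (hf : Function.Injective f)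
    (h : NotFree X) : NotFree Y := by
  obtain ⟨x, y, k, h1, h2, h3, h4, h5, h6⟩ := h
  refine ⟨f x, f y, f k, ?_, ?_, h3.map f, ?_, h5.map f, ?_⟩
  · rw [orderOf_injective f hf, h1]
  · rw [orderOf_injective f hf, h2]
  · intro hc
    obtain ⟨i, hi⟩ := mem_zpowers_iff.1 hc
    rw [← map_zpow] at hi
    exact h4 (mem_zpowers_iff.2 ⟨i, hf hi⟩)
  · rw [← map_mul, ← map_inv, ← map_mul, h6, map_inv]

theorem not_notFree [Fact (Nat.Prime 3)] {P : Sylow 3 G} (h : Free8 (P : Subgroup G)) : ¬ NotFree G := by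
  rintro ⟨x, y, k, hx, hy, hxy, hyx, hkx, hky⟩
  -- `⟨x, y⟩` is a `3`-group
  have hn : zpowers x ≤ normalizer ((zpowers y : Subgroup G) : Set G) := by
    rw [zpowers_le]
    refine cent_le_norm _ ?_
    rw [mem_centralizer_iff]
    rintro z hz
    obtain ⟨i, rfl⟩ := mem_zpowers_iff.1 hz
    exact (hxy.symm.zpow_left i).eq
  have h3x : IsPGroup 3 (zpowers x) := IsPGroup.of_card (n := 1) (by rw [Nat.card_zpowers, hx, pow_one])
  have h3y : IsPGroup 3 (zpowers y) := IsPGroup.of_card (n := 1) (by rw [Nat.card_zpowers, hy, pow_one])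
  have h3 : IsPGroup 3 (zpowers x ⊔ zpowers y : Subgroup G) := h3x.to_sup_of_normal_right' h3y hn
  obtain ⟨Q, hQ⟩ := h3.exists_le_sylow
  have hQ8 : Free8 (Q : Subgroup G) := h.conj P Q
  have hxQ : x ∈ (Q : Subgroup G) := hQ (mem_sup_left (mem_zpowers x))
  have hyQ : y ∈ (Q : Subgroup G) := hQ (mem_sup_right (mem_zpowers y))
  -- `Q = ⟨x, y⟩`
  have hQe : zpowers x ⊔ zpowers y = (Q : Subgroup G) := by
    have hd : Nat.card (zpowers x ⊔ zpowers y : Subgroup G) ∣ 9 := by
      rw [← hQ8.card]; exact card_dvd_of_le hQ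
    have h31 : Nat.card (zpowers x) = 3 := by rw [Nat.card_zpowers, hx]
    have h32 : Nat.card (zpowers x) ∣ Nat.card (zpowers x ⊔ zpowers y : Subgroup G) := card_dvd_of_le le_sup_left
    have h33 : Nat.card (zpowers x ⊔ zpowers y : Subgroup G) ≠ 3 := by
      intro h0
      have h1 : zpowers x = zpowers x ⊔ zpowers y :=
        eq_of_le_of_card_ge le_sup_left (by rw [h0, h31])
      exact hyx (by rw [h1]; exact mem_sup_right (mem_zpowers y))
    apply eq_of_le_of_card_ge hQ
    rw [hQ8.card]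
    obtain ⟨j, hj, he⟩ := (Nat.dvd_prime_pow Nat.prime_three).1 (show _ ∣ 3 ^ 2 from hd)
    rw [h31, he] at h32
    rw [he] at h33 ⊢
    interval_cases j <;> omega
  have hkN : k ∈ normalizer ((Q : Subgroup G) : Set G) := by
    have hle : (Q : Subgroup G).map (MulAut.conj k).toMonoidHom ≤ (Q : Subgroup G) := by
      rw [← hQe, Subgroup.map_sup, sup_le_iff, MonoidHom.map_zpowers, MonoidHom.map_zpowers, zpowers_le, zpowers_le]
      constructor
      · have h1 : (MulAut.conj k).toMonoidHom x = x := by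
          change k * x * k⁻¹ = x
          rw [hkx.eq, mul_inv_cancel_right]
        rw [h1]; exact mem_sup_left (mem_zpowers x)
      · have h1 : (MulAut.conj k).toMonoidHom y = y⁻¹ := hky
        rw [h1]; exact mem_sup_right (inv_mem (mem_zpowers y))
    have heq : (Q : Subgroup G).map (MulAut.conj k).toMonoidHom = (Q : Subgroup G) := by
      apply eq_of_le_of_card_ge hle
      rw [card_map_of_injective (MulAut.conj k).injective]
    refine Sylow.smul_eq_iff_mem_normalizer.1 (Sylow.ext ?_)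
    exact heq
  have hkC : k ∉ centralizer ((Q : Subgroup G) : Set G) := by
    intro hc
    have h1 := mem_centralizer_iff.1 hc y hyQ
    rw [← h1, mul_inv_cancel_right] at hky
    have h2 : y ^ 2 = 1 := by rw [pow_two]; nth_rewrite 2 [hky]; exact mul_inv_cancel y
    have h4 : orderOf y ∣ 2 := orderOf_dvd_of_pow_eq_one h2
    rw [hy] at h4
    omega
  have hx1 : x ≠ 1 := by rintro rfl; rw [orderOf_one] at hx; omega
  exact hQ8.free k hkN hkC x hxQ hx1 (by rw [hkx.eq, mul_inv_cancel_right])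

end fin

end Cfsg.Agent.H629.T9
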